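-- Team project PG63 (S3664), package [PSPV] (helper35): the primes dividing |PSp₆(3)|.
import Mathlib
import Cfsg.Agent.Lib.Helper14.PG63.Defs
import Cfsg.Agent.Lib.Helper40.SympOrder
import Cfsg.Agent.Lib.Helper40.SympCenter

set_option autoImplicit false

namespace Cfsg.Agent.Lib.Helper35.PG63

open Cfsg.Agent.Lib.Helper14.PG63

universe u

/-- `|PSp₆(3)| = 2⁹ · 3⁹ · 5 · 7 · 13`. -/
theorem card_psp6_3 {F : Type u} [Field F] [Fintype F] (hF : Fintype.card F = 3) :
    Nat.card (Cfsg.PSp 3 F) = 4585351680 := by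
  have h1 : Nat.card (Matrix.symplecticGroup (Fin 3) F) = 9170703360 := by
    rw [Cfsg.Agent.Lib.Helper40.card_symplecticGroup 3, hF]
    simp [Finset.prod_range_succ]
  have h2 : Nat.card (Subgroup.center (Matrix.symplecticGroup (Fin 3) F)) = 2 := by
    rw [Cfsg.Agent.Lib.Helper40.card_center_symplectic 3 (by norm_num), hF]
    norm_num
  have hlag : Nat.card (Subgroup.center (Matrix.symplecticGroup (Fin 3) F)) *
      Nat.card (Cfsg.PSp 3 F) = Nat.card (Matrix.symplecticGroup (Fin 3) F) := by
    rw [mul_comm]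
    exact (Subgroup.card_eq_card_quotient_mul_card_subgroup _).symm
  rw [h1, h2] at hlag
  omega

/-- [PSPV] -/
theorem pkgPSpV : Cfsg.Agent.Lib.Helper14.PG63.PkgPSpV.{u} := by
  intro F _ _ hF p hp
  rw [card_psp6_3 hF]
  unfold Vx
  constructor
  · intro h
    have e : (4585351680 : ℕ) = 2 ^ 9 * 3 ^ 9 * 5 * 7 * 13 := by norm_num
    rw [e] at h
    rcases (Nat.Prime.dvd_mul hp).1 h with h | h
    · rcases (Nat.Prime.dvd_mul hp).1 h with h | h
      · rcases (Nat.Prime.dvd_mul hp).1 h with h | h
        · rcases (Nat.Prime.dvd_mul hp).1 h with h | h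
          · left
            exact (Nat.prime_dvd_prime_iff_eq hp Nat.prime_two).1 (hp.dvd_of_dvd_pow h)
          · right; left
            exact (Nat.prime_dvd_prime_iff_eq hp Nat.prime_three).1 (hp.dvd_of_dvd_pow h)
        · right; right; left
          exact (Nat.prime_dvd_prime_iff_eq hp (by norm_num)).1 h
      · right; right; right; left
        exact (Nat.prime_dvd_prime_iff_eq hp (by norm_num)).1 h
    · right; right; right; right
      exact (Nat.prime_dvd_prime_iff_eq hp (by norm_num)).1 h
  · rintro (rfl | rfl | rfl | rfl | rfl) <;> norm_num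

end Cfsg.Agent.Lib.Helper35.PG63
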