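-- Team project PG63 (S3664), package [PSPODD] (helper35): PSp₆(3) has an element of order 15
-- and none of order 21, 39, 35, 65, 91 (from helper40's psp_rp_iff / psp_rs_iff).
import Mathlib
import Cfsg.Agent.Lib.Helper14.PG63.Defs
import Cfsg.Agent.Lib.Helper35.PG63.PSpV
import Cfsg.Agent.Lib.Helper40.PSpRP
import Cfsg.Agent.Lib.Helper40.PSpRS

set_option autoImplicit false

namespace Cfsg.Agent.Lib.Helper35.PG63

open Cfsg.Agent.Lib.Helper14.PG63

universe u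

theorem orderOf_three_zmod5 : orderOf ((3 : ℕ) : ZMod 5) = 4 := by
  rw [orderOf_eq_iff (by norm_num)]
  refine ⟨by decide, fun m hm hpos => ?_⟩
  interval_cases m <;> decide

theorem orderOf_three_zmod7 : orderOf ((3 : ℕ) : ZMod 7) = 6 := by
  rw [orderOf_eq_iff (by norm_num)]
  refine ⟨by decide, fun m hm hpos => ?_⟩
  interval_cases m <;> decide

theorem orderOf_three_zmod13 : orderOf ((3 : ℕ) : ZMod 13) = 3 := by
  rw [orderOf_eq_iff (by norm_num)]
  refine ⟨by decide, fun m hm hpos => ?_⟩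
  interval_cases m <;> decide

/-- a field with three elements has characteristic three. -/
theorem charP_three_of_card {F : Type u} [Field F] [Fintype F] (hF : Fintype.card F = 3) :
    CharP F 3 := by
  haveI := ringChar.charP F
  obtain ⟨n, hp, hn⟩ := FiniteField.card F (ringChar F)
  have h3 : ringChar F ∣ 3 := by
    rw [← hF, hn]
    exact dvd_pow_self _ n.ne_zero
  have : ringChar F = 3 := (Nat.prime_dvd_prime_iff_eq hp Nat.prime_three).1 h3
  rw [← this]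
  infer_instance

/-- [PSPODD] -/
theorem pkgPSpOdd : Cfsg.Agent.Lib.Helper14.PG63.PkgPSpOdd.{u} := by
  intro F _ _ hF
  haveI : Fact (Nat.Prime 3) := ⟨Nat.prime_three⟩
  haveI : CharP F 3 := charP_three_of_card hF
  have hcard := card_psp6_3 hF
  have h7 : 7 ∣ Nat.card (Cfsg.PSp 3 F) := by rw [hcard]; norm_num
  have h13 : 13 ∣ Nat.card (Cfsg.PSp 3 F) := by rw [hcard]; norm_num
  have k5 : (4 : ℕ) = orderOf ((Fintype.card F : ℕ) : ZMod 5) := by
    rw [hF]; exact orderOf_three_zmod5.symm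
  have k7 : (6 : ℕ) = orderOf ((Fintype.card F : ℕ) : ZMod 7) := by
    rw [hF]; exact orderOf_three_zmod7.symm
  have k13 : (3 : ℕ) = orderOf ((Fintype.card F : ℕ) : ZMod 13) := by
    rw [hF]; exact orderOf_three_zmod13.symm
  have e5 : (Odd 4 ∧ 2 = 4) ∨ (Even 4 ∧ 2 * 2 = 4) := Or.inr ⟨by decide, by norm_num⟩
  have e7 : (Odd 6 ∧ 3 = 6) ∨ (Even 6 ∧ 2 * 3 = 6) := Or.inr ⟨by decide, by norm_num⟩
  have e13 : (Odd 3 ∧ 3 = 3) ∨ (Even 3 ∧ 2 * 3 = 3) := Or.inl ⟨by decide, rfl⟩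
  refine ⟨?_, ?_, ?_, ?_, ?_, ?_⟩
  · -- 15 = 5 * 3
    by_contra hcon
    have h := (Cfsg.Agent.Lib.Helper40.PSpRP.psp_rp_iff (F := F) 3 3 (by norm_num) 5
      (by norm_num) (by norm_num) (by norm_num) 4 2 k5 e5).1 (by
        rintro ⟨g, hg⟩
        exact hcon ⟨g, by rw [hg]⟩)
    omega
  · -- 21 = 7 * 3
    rintro ⟨g, hg⟩
    exact (Cfsg.Agent.Lib.Helper40.PSpRP.psp_rp_iff (F := F) 3 3 (by norm_num) 7
      (by norm_num) (by norm_num) (by norm_num) 6 3 k7 e7).2 (by norm_num) ⟨g, by rw [hg]⟩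
  · -- 39 = 13 * 3
    rintro ⟨g, hg⟩
    exact (Cfsg.Agent.Lib.Helper40.PSpRP.psp_rp_iff (F := F) 3 3 (by norm_num) 13
      (by norm_num) (by norm_num) (by norm_num) 3 3 k13 e13).2 (by norm_num) ⟨g, by rw [hg]⟩
  · -- 35 = 5 * 7
    rintro ⟨g, hg⟩
    exact (Cfsg.Agent.Lib.Helper40.PSpRS.psp_rs_iff (F := F) 3 3 (by norm_num) 5 7
      (by norm_num) (by norm_num) (by norm_num) (by norm_num) (by norm_num) (by norm_num)
      (by norm_num) h7 4 6 2 3 k5 k7 e5 e7 (by norm_num)).2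
      ⟨by norm_num, by rintro ⟨t, -, ht⟩; omega⟩ ⟨g, by rw [hg]⟩
  · -- 65 = 5 * 13
    rintro ⟨g, hg⟩
    exact (Cfsg.Agent.Lib.Helper40.PSpRS.psp_rs_iff (F := F) 3 3 (by norm_num) 5 13
      (by norm_num) (by norm_num) (by norm_num) (by norm_num) (by norm_num) (by norm_num)
      (by norm_num) h13 4 3 2 3 k5 k13 e5 e13 (by norm_num)).2
      ⟨by norm_num, by rintro ⟨t, -, ht⟩; omega⟩ ⟨g, by rw [hg]⟩
  · -- 91 = 7 * 13
    rintro ⟨g, hg⟩
    exact (Cfsg.Agent.Lib.Helper40.PSpRS.psp_rs_iff (F := F) 3 3 (by norm_num) 7 13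
      (by norm_num) (by norm_num) (by norm_num) (by norm_num) (by norm_num) (by norm_num)
      (by norm_num) h13 6 3 3 3 k7 k13 e7 e13 (by norm_num)).2
      ⟨by norm_num, by rintro ⟨t, -, ht⟩; omega⟩ ⟨g, by rw [hg]⟩

end Cfsg.Agent.Lib.Helper35.PG63
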